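import Cfsg.Agent.H350.Tri.Defs
import Cfsg.Agent.H592.Tri.Fix
import Cfsg.Agent.SignalizersComponents.SLQuasisimple
import Cfsg.Agent.GenPsu.Psu
import Cfsg.Agent.Lib.ComponentSolvable

/-!
# S2187, row TRI, TRI-5b: the fixed points in the standard `A₂` (helper140)

`compY_A2_of` : `CompY τ A2std`, relative to the embedding `Ψ` of `SL₃(k)` of TRI-5a.
-/

set_option autoImplicit false
set_option linter.unusedSectionVars false

namespace Cfsg.Agent.H140.Tri

open CoxeterSystem Cfsg Cfsg.Lie Cfsg.Agent.ChevalleyStructure Cfsg.Agent.ChevalleyStructure.Elts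
open Cfsg.Agent.ChevalleyStructure.CoxeterGeom Cfsg.Agent.ChevalleyStructure.CoxeterGeomTypes
  Cfsg.Agent.ChevalleyStructure.NPerm
open Cfsg.Agent.Tits.Roots Cfsg.Agent.Tits.Core Cfsg.Agent.Nodes Cfsg.Agent.Nodes.Reps Cfsg.Agent.Nodes.BNOf
  Cfsg.Agent.Nodes.RGDChev
open Cfsg.Agent.KFacts.RgdField Cfsg.Agent.KFacts.RgdChevCoord
open Cfsg.Agent.BpExc Cfsg.Agent.BpExc.Fr Cfsg.Agent.BpExc.LangFr
open Cfsg.Agent.H469.Exc Cfsg.Agent.H469.Exc.SigFr Cfsg.Agent.H818.Gen Cfsg.Agent.H350.Tri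
open Matrix (SpecialLinearGroup)

universe u v

/-! ### abstract part -/

section abs

theorem quasi_congr {G H : Type*} [Group G] [Group H] (e : G ≃* H) (h : IsQuasisimple G) : IsQuasisimple H := by
  obtain ⟨h1, h2⟩ := h
  have hc : (Subgroup.center G).map e.toMonoidHom = Subgroup.center H := by
    ext y
    rw [Subgroup.mem_map]
    constructor
    · rintro ⟨x, hx, rfl⟩
      refine Subgroup.mem_center_iff.2 fun g => ?_
      have := Subgroup.mem_center_iff.1 hx (e.symm g)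
      have h3 := congrArg e this
      simp only [map_mul, MulEquiv.apply_symm_apply] at h3
      exact h3
    · intro hy
      refine ⟨e.symm y, Subgroup.mem_center_iff.2 fun g => ?_, e.apply_symm_apply y⟩
      apply e.injective
      rw [map_mul, map_mul, e.apply_symm_apply]
      exact Subgroup.mem_center_iff.1 hy (e g)
  refine ⟨?_, ?_⟩
  · rw [Group.isPerfect_def] at h1 ⊢
    have h3 : (⊤ : Subgroup H) = (⊤ : Subgroup G).map e.toMonoidHom :=
      (Subgroup.map_top_of_surjective _ e.surjective).symm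
    rw [commutator_def] at h1 ⊢
    rw [h3, ← Subgroup.map_commutator, h1]
  · have := (QuotientGroup.congr (Subgroup.center G) (Subgroup.center H) e hc)
    exact (MulEquiv.isSimpleGroup_congr this).1 h2

/-- a quasisimple subgroup with a non-central `r`-element is generated by its `r`-elements -/
theorem closure_of_quasi {Y : Type*} [Group Y] {K : Subgroup Y} (hK : IsQuasisimple ↥K) {r : ℕ}
    {a b : Y} (ha : a ∈ K) (hb : b ∈ K) (har : ∃ j, a ^ r ^ j = 1) (hab : a * b ≠ b * a) :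
    K = Subgroup.closure {u : Y | u ∈ K ∧ ∃ j, u ^ r ^ j = 1} := by
  set N : Subgroup ↥K := Subgroup.closure {u : ↥K | ∃ j, u ^ r ^ j = 1} with hN
  have hn : N.Normal := by
    refine ⟨fun x hx g => ?_⟩
    refine Subgroup.closure_induction (p := fun x _ => g * x * g⁻¹ ∈ N) ?_ ?_ ?_ ?_ hx
    · rintro x ⟨j, hj⟩
      refine Subgroup.subset_closure ⟨j, ?_⟩
      rw [conj_pow, hj, mul_one, mul_inv_cancel]
    · rw [mul_one, mul_inv_cancel]; exact N.one_mem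
    · intro x y _ _ hx hy
      have : g * (x * y) * g⁻¹ = (g * x * g⁻¹) * (g * y * g⁻¹) := by group
      rw [this]; exact N.mul_mem hx hy
    · intro x _ hx
      have : g * x⁻¹ * g⁻¹ = (g * x * g⁻¹)⁻¹ := by group
      rw [this]; exact N.inv_mem hx
  have haN : (⟨a, ha⟩ : ↥K) ∈ N := by
    obtain ⟨j, hj⟩ := har
    exact Subgroup.subset_closure ⟨j, Subtype.ext (by simpa using hj)⟩
  rcases Cfsg.Agent.Lib.ComponentSolvable.quasisimple_normal_cases hK hn with h | h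
  · have h1 : N.map K.subtype = K := by rw [h, ← MonoidHom.range_eq_map, Subgroup.range_subtype]
    rw [hN, MonoidHom.map_closure] at h1
    refine le_antisymm ?_ ?_
    · nth_rewrite 1 [← h1]
      rw [Subgroup.closure_le]
      rintro _ ⟨x, ⟨j, hj⟩, rfl⟩
      refine Subgroup.subset_closure ⟨x.2, j, ?_⟩
      have := congrArg (fun y : ↥K => (y : Y)) hj
      simpa using this
    · rw [Subgroup.closure_le]
      rintro x ⟨hx, -⟩
      exact hx
  · exfalso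
    apply hab
    have h1 := Subgroup.mem_center_iff.1 (h haN) ⟨b, hb⟩
    exact (congrArg (fun y : ↥K => (y : Y)) h1).symm

/-- an automorphism permuting the image of an injective homomorphism -/
theorem exists_lift {X Y : Type*} [Group X] [Group Y] {Ψ : X →* Y} (hinj : Function.Injective Ψ) (τ : MulAut Y)
    (h : ∀ y, τ y ∈ Ψ.range ↔ y ∈ Ψ.range) : ∃ τ' : MulAut X, ∀ A, Ψ (τ' A) = τ (Ψ A) := by
  set f : X →* X := (MonoidHom.ofInjective hinj).symm.toMonoidHom.comp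
    ((τ.toMonoidHom.comp Ψ).codRestrict Ψ.range (fun A => (h (Ψ A)).2 ⟨A, rfl⟩)) with hf
  have hs : ∀ A, Ψ (f A) = τ (Ψ A) := by
    intro A
    have h1 := (MonoidHom.ofInjective hinj).apply_symm_apply
      (((τ.toMonoidHom.comp Ψ).codRestrict Ψ.range (fun A => (h (Ψ A)).2 ⟨A, rfl⟩)) A)
    exact congrArg (fun y : ↥Ψ.range => (y : Y)) h1
  have hb : Function.Bijective f := by
    refine ⟨fun A B hAB => ?_, fun B => ?_⟩
    · apply hinj
      apply τ.injective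
      rw [← hs, ← hs, hAB]
    · obtain ⟨A, hA⟩ : (τ.symm (Ψ B)) ∈ Ψ.range := by
        rw [← h, MulEquiv.apply_symm_apply]
        exact ⟨B, rfl⟩
      refine ⟨A, hinj ?_⟩
      rw [hs, hA, MulEquiv.apply_symm_apply]
  exact ⟨MulEquiv.ofBijective f hb, hs⟩

end abs

/-! ### the roots -/

/-- the roots of `A2std` -/
def rt : Fin 3 → Fin 3 → (Fin 4 → ℤ) :=
  ![![0, sr 0, sr 0 + sr 1], ![-sr 0, 0, sr 1], ![-(sr 0 + sr 1), -sr 1, 0]]

theorem rt_mem {i j : Fin 3} (hij : i ≠ j) : rt i j ∈ A2std := by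
  fin_cases i <;> fin_cases j <;> first | exact absurd rfl hij | skip
  · exact Or.inl rfl
  · exact Or.inr (Or.inr (Or.inl rfl))
  · exact Or.inr (Or.inr (Or.inr (Or.inl rfl)))
  · exact Or.inr (Or.inl rfl)
  · exact Or.inr (Or.inr (Or.inr (Or.inr (Or.inr rfl))))
  · exact Or.inr (Or.inr (Or.inr (Or.inr (Or.inl rfl))))

theorem mem_rt {a : Fin 4 → ℤ} (ha : a ∈ A2std) : ∃ i j : Fin 3, i ≠ j ∧ a = rt i j := by
  rcases ha with rfl | rfl | rfl | rfl | rfl | rfl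
  · exact ⟨0, 1, by decide, rfl⟩
  · exact ⟨1, 2, by decide, rfl⟩
  · exact ⟨0, 2, by decide, rfl⟩
  · exact ⟨1, 0, by decide, rfl⟩
  · exact ⟨2, 1, by decide, rfl⟩
  · exact ⟨2, 0, by decide, rfl⟩

theorem sr_pos (i : Fin 4) : (0 : Fin 4 → ℤ) ≤ sr i := by
  intro j
  by_cases h : i = j
  · subst h; rw [sr_self]; exact zero_le_one
  · rw [sr_ne (Ne.symm h)]; exact le_rfl

theorem not_pos {a : Fin 4 → ℤ} {i : Fin 4} (hi : 0 < a i) : ¬ (0 : Fin 4 → ℤ) ≤ -a := by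
  intro h
  have := h i
  simp only [Pi.zero_apply, Pi.neg_apply] at this
  omega

theorem pos_A2 {a : Fin 4 → ℤ} (ha : a ∈ A2std) (h : 0 ≤ a) : a = sr 0 ∨ a = sr 1 ∨ a = sr 0 + sr 1 := by
  rcases ha with rfl | rfl | rfl | rfl | rfl | rfl
  · exact Or.inl rfl
  · exact Or.inr (Or.inl rfl)
  · exact Or.inr (Or.inr rfl)
  · exact absurd h (not_pos (i := 0) (by rw [sr_self]; exact zero_lt_one))
  · exact absurd h (not_pos (i := 1) (by rw [sr_self]; exact zero_lt_one))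
  · exact absurd h (not_pos (i := 0) (by
      rw [Pi.add_apply, sr_self, sr_ne (by decide)]; norm_num))

theorem g_cases {g : (Fin 4 → ℤ) ≃+ (Fin 4 → ℤ)} (hg : ∀ a ∈ A2std, g a ∈ A2std)
    (hpos : ∀ a ∈ A2std, 0 ≤ a → 0 ≤ g a) :
    (∀ i j : Fin 3, i ≠ j → g (rt i j) = rt i j) ∨
      (∀ i j : Fin 3, i ≠ j → g (rt i j) = rt (Fin.rev j) (Fin.rev i)) := by
  have m0 : sr 0 ∈ A2std := rt_mem (i := 0) (j := 1) (by decide)
  have m1 : sr 1 ∈ A2std := rt_mem (i := 1) (j := 2) (by decide)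
  have m2 : sr 0 + sr 1 ∈ A2std := rt_mem (i := 0) (j := 2) (by decide)
  have h0 := pos_A2 (hg _ m0) (hpos _ m0 (sr_pos 0))
  have h1 := pos_A2 (hg _ m1) (hpos _ m1 (sr_pos 1))
  have h2 := pos_A2 (hg _ m2) (hpos _ m2 (add_nonneg (sr_pos 0) (sr_pos 1)))
  rw [map_add] at h2
  have key : (g (sr 0) = sr 0 ∧ g (sr 1) = sr 1) ∨ (g (sr 0) = sr 1 ∧ g (sr 1) = sr 0) := by
    have hd0 : (sr 0 : Fin 4 → ℤ) 0 = 1 := sr_self 0
    have hd1 : (sr 1 : Fin 4 → ℤ) 1 = 1 := sr_self 1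
    have hd2 : (sr 0 : Fin 4 → ℤ) 1 = 0 := sr_ne (by decide)
    have hd3 : (sr 1 : Fin 4 → ℤ) 0 = 0 := sr_ne (by decide)
    rcases h0 with h0 | h0 | h0 <;> rcases h1 with h1 | h1 | h1 <;> rw [h0, h1] at h2 <;>
      first
        | exact Or.inl ⟨h0, h1⟩
        | exact Or.inr ⟨h0, h1⟩
        | (exfalso
           rcases h2 with h2 | h2 | h2 <;>
           · have e0 := congrFun h2 0
             have e1 := congrFun h2 1
             simp only [Pi.add_apply, hd0, hd1, hd2, hd3] at e0 e1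
             omega)
  rcases key with ⟨h0, h1⟩ | ⟨h0, h1⟩
  · left
    intro i j hij
    obtain h | h | h | h | h | h := rt_mem hij <;>
    · rw [h]; simp only [map_add, map_neg, h0, h1]
  · right
    intro i j hij
    fin_cases i <;> fin_cases j <;> first | exact absurd rfl hij | skip
    · exact h0
    · change g (sr 0 + sr 1) = sr 0 + sr 1
      rw [map_add, h0, h1, add_comm]
    · change g (-sr 0) = -sr 1
      rw [map_neg, h0]
    · exact h1
    · change g (-(sr 0 + sr 1)) = -(sr 0 + sr 1)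
      rw [map_neg, map_add, h0, h1, add_comm]
    · change g (-sr 1) = -sr 0
      rw [map_neg, h1]

/-! ### the main part -/

section main

variable {r : ℕ} [hrf : Fact r.Prime]

/-- the type of the root datum -/
noncomputable abbrev cs4' := coxeterD4.toCoxeterSystem

/-- transvections -/
abbrev Tr {k : Type*} [Field k] {i j : Fin 3} (hij : i ≠ j) (t : k) : SpecialLinearGroup (Fin 3) k :=
  SpecialLinearGroup.transvection hij t

/-- the embedding of `SL₃` -/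
structure HPsi (Ψ : SpecialLinearGroup (Fin 3) (KK r) →* Y4 r) : Prop where
  inj : Function.Injective Ψ
  root : ∀ (i j : Fin 3), i ≠ j → ∃ s < chevD4.nroots, vec chevD4 4 s = rt i j
  tr : ∀ (i j : Fin 3) (hij : i ≠ j), ∃ ε : KK r, ε * ε = 1 ∧
    ∀ t, Ψ (Tr hij t) = xc Cfsg.Agent.Nodes.RGDTwD4.hp (rt i j) (ε * t)

/-- from the form of the plan -/
theorem HPsi.of {Ψ : SpecialLinearGroup (Fin 3) (KK r) →* Y4 r} (hinj : Function.Injective Ψ)
    (h : ∀ (i j : Fin 3) (hij : i ≠ j), ∃ s < chevD4.nroots, ∃ ε : KK r, ε ^ 2 = 1 ∧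
      vec chevD4 4 s = (![![0, sr 0, sr 0 + sr 1], ![-sr 0, 0, sr 1], ![-(sr 0 + sr 1), -sr 1, 0]] :
        Fin 3 → Fin 3 → (Fin 4 → ℤ)) i j ∧
      ∀ t : KK r, Ψ ⟨Matrix.transvection i j t, by simp [hij]⟩ =
        xs Cfsg.Agent.Nodes.RGDTwD4.hp.inList s (ε * t)) : HPsi Ψ := by
  refine ⟨hinj, fun i j hij => ?_, fun i j hij => ?_⟩
  · obtain ⟨s, hs, -, -, h1, -⟩ := h i j hij
    exact ⟨s, hs, h1⟩
  · obtain ⟨s, hs, ε, hε, h1, h2⟩ := h i j hij
    refine ⟨ε, by rw [← pow_two]; exact hε, fun t => ?_⟩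
    have h3 : rt i j = vec chevD4 4 s := h1.symm
    rw [h3]
    refine (h2 t).trans (Subtype.ext ?_)
    rw [coe_xc Cfsg.Agent.Nodes.RGDTwD4.hp hs]
    rfl

variable {Ψ : SpecialLinearGroup (Fin 3) (KK r) →* Y4 r}

theorem HPsi.mem_iff (H : HPsi Ψ) {i j : Fin 3} (hij : i ≠ j) {y : Y4 r} :
    y ∈ XX chevD4 4 (KK r) (rt i j) ↔ ∃ t, y = Ψ (Tr hij t) := by
  obtain ⟨s, hs, h1⟩ := H.root i j hij
  obtain ⟨ε, hε, h2⟩ := H.tr i j hij
  rw [← h1, HX.mem_XX_xc Cfsg.Agent.Nodes.RGDTwD4.hp hs, h1]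
  constructor
  · rintro ⟨t, rfl⟩
    exact ⟨ε * t, by rw [h2, ← mul_assoc, hε, one_mul]⟩
  · rintro ⟨t, rfl⟩
    exact ⟨ε * t, h2 t⟩

theorem HPsi.isRoot (H : HPsi Ψ) {i j : Fin 3} (hij : i ≠ j) :
    IsRoot cs4' Cfsg.Agent.Nodes.RGDTwD4.hp.isCartan (rt i j) := by
  obtain ⟨s, hs, h1⟩ := H.root i j hij
  exact (isRoot_iff Cfsg.Agent.Nodes.RGDTwD4.hp cs4' _).2 ⟨s, hs, h1⟩

theorem HPsi.range_eq (H : HPsi Ψ) : Ψ.range = RGD.Sup (XX chevD4 4 (KK r)) A2std := by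
  refine le_antisymm ?_ ?_
  · rintro _ ⟨A, rfl⟩
    refine Cfsg.Agent.LieClassical.SLGen.transvection_induction
      (fun A => Ψ A ∈ RGD.Sup (XX chevD4 4 (KK r)) A2std) ?_ ?_ A
    · intro i j hij t
      exact RGD.le_Sup (rt_mem hij) ((H.mem_iff hij).2 ⟨t, rfl⟩)
    · intro A B hA hB
      rw [map_mul]
      exact Subgroup.mul_mem _ hA hB
  · refine iSup_le fun a => ?_
    obtain ⟨i, j, hij, h⟩ := mem_rt a.2
    intro y hy
    rw [h] at hy
    obtain ⟨t, rfl⟩ := (H.mem_iff hij).1 hy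
    exact ⟨_, rfl⟩

theorem Tr_pow {k : Type*} [Field k] {i j : Fin 3} (hij : i ≠ j) (t : k) (n : ℕ) :
    Tr hij t ^ n = Tr hij (n * t) := by
  induction n with
  | zero =>
    rw [pow_zero, Nat.cast_zero, zero_mul]
    exact (SpecialLinearGroup.transvection_coeff_zero hij).symm
  | succ n ih =>
    rw [pow_succ, ih]
    apply Subtype.ext
    show Matrix.transvection i j ((n : k) * t) * Matrix.transvection i j t =
      Matrix.transvection i j (((n + 1 : ℕ) : k) * t)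
    rw [Matrix.transvection_mul_transvection_same _ _ hij]
    congr 1
    push_cast
    ring

theorem Tr_comm {k : Type*} [Field k] {s t : k}
    (h : Tr (show (0 : Fin 3) ≠ 2 by decide) s * Tr (show (2 : Fin 3) ≠ 0 by decide) t =
      Tr (show (2 : Fin 3) ≠ 0 by decide) t * Tr (show (0 : Fin 3) ≠ 2 by decide) s) : s * t = 0 := by
  have h1 := congrArg (fun A : SpecialLinearGroup (Fin 3) k => A.1 0 0) h
  have h2 : (Matrix.transvection 0 2 s * Matrix.transvection 2 0 t : Matrix (Fin 3) (Fin 3) k) 0 0 =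
      (Matrix.transvection 2 0 t * Matrix.transvection 0 2 s : Matrix (Fin 3) (Fin 3) k) 0 0 := h1
  simpa [Matrix.transvection, Matrix.mul_apply, Fin.sum_univ_three, Matrix.single_apply] using h2

/-- **TRI-5b**, relative to TRI-5a -/
theorem compY_A2_of (H : HPsi Ψ) (hr5 : 5 ≤ r)
    (hSL : ∀ (F : Type) [Field F] [Fintype F] [CharP F r], Gen 3 (Matrix.SpecialLinearGroup (Fin 3) F))
    (hSU : ∀ (F : Type) [Field F] [Fintype F] [CharP F r] (q : ℕ), Fintype.card F = q ^ 2 → Gen 3 ↥(SU 3 F q))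
    {e : ℕ} (he : 0 < e) {τ : MulAut (Y4 r)} (hτ : IsFrob r e τ) {g : (Fin 4 → ℤ) ≃+ (Fin 4 → ℤ)}
    (F : Fr coxeterD4.toCoxeterSystem Cfsg.Agent.Nodes.RGDTwD4.hp.isCartan (TT chevD4 (KK r)) (XX chevD4 4 (KK r)) τ g)
    (hg : ∀ a ∈ A2std, g a ∈ A2std) (hpos : ∀ a ∈ A2std, 0 ≤ a → 0 ≤ g a) : CompY τ A2std := by
  have hrp := hrf.out
  have hcs := g_cases hg hpos
  -- `τ` preserves the image
  have hsurj : ∀ b ∈ A2std, ∃ a ∈ A2std, g a = b := by
    intro b hb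
    obtain ⟨i, j, hij, rfl⟩ := mem_rt hb
    rcases hcs with h | h
    · exact ⟨_, rt_mem hij, h i j hij⟩
    · have hji : Fin.rev j ≠ Fin.rev i := fun e => hij (Fin.rev_injective e).symm
      refine ⟨rt (Fin.rev j) (Fin.rev i), rt_mem hji, ?_⟩
      rw [h _ _ hji, Fin.rev_rev, Fin.rev_rev]
  have hroot : ∀ a ∈ A2std, IsRoot cs4' Cfsg.Agent.Nodes.RGDTwD4.hp.isCartan a := by
    intro a ha
    obtain ⟨i, j, hij, rfl⟩ := mem_rt ha
    exact H.isRoot hij
  have hN1 : (RGD.Sup (XX chevD4 4 (KK r)) A2std).map τ.toMonoidHom ≤ RGD.Sup (XX chevD4 4 (KK r)) A2std := by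
    rw [RGD.Sup, Subgroup.map_iSup]
    refine iSup_le fun a => ?_
    rintro _ ⟨y, hy, rfl⟩
    exact RGD.le_Sup (hg a a.2) ((F.map a (hroot a a.2) y).2 hy)
  have hN2 : RGD.Sup (XX chevD4 4 (KK r)) A2std ≤ (RGD.Sup (XX chevD4 4 (KK r)) A2std).map τ.toMonoidHom := by
    refine iSup_le fun b => ?_
    obtain ⟨a, ha, hab⟩ := hsurj b b.2
    intro y hy
    refine ⟨τ.symm y, RGD.le_Sup ha ?_, τ.apply_symm_apply y⟩
    rw [← F.map a (hroot a ha), MulEquiv.apply_symm_apply, hab]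
    exact hy
  have hN : (RGD.Sup (XX chevD4 4 (KK r)) A2std).map τ.toMonoidHom = RGD.Sup (XX chevD4 4 (KK r)) A2std :=
    le_antisymm hN1 hN2
  have hNm : ∀ y, τ y ∈ Ψ.range ↔ y ∈ Ψ.range := by
    intro y
    rw [H.range_eq]
    constructor
    · intro hy
      obtain ⟨x, hx, hxy⟩ := hN2 hy
      rwa [← τ.injective hxy]
    · intro hy
      exact hN1 ⟨y, hy, rfl⟩
  obtain ⟨τ', hτ'⟩ := exists_lift H.inj τ hNm
  -- the action on the transvections
  have hact : ∀ (i j i' j' : Fin 3) (hij : i ≠ j) (hij' : i' ≠ j'), g (rt i j) = rt i' j' →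
      ∃ c : KK r, ∀ t, τ' (Tr hij t) = Tr hij' (c * t ^ r ^ e) := by
    intro i j i' j' hij hij' h
    obtain ⟨ε, hε, h1⟩ := H.tr i j hij
    obtain ⟨ε', hε', h2⟩ := H.tr i' j' hij'
    obtain ⟨c, -, hc⟩ := HX.fr_xc Cfsg.Agent.Nodes.RGDTwD4.hp cs4' hτ F (H.isRoot hij)
    refine ⟨ε' * (c * ε ^ r ^ e), fun t => H.inj ?_⟩
    rw [hτ', h1, hc, h, h2]
    congr 1
    rw [mul_pow]
    linear_combination (-(c * ε ^ r ^ e * t ^ r ^ e)) * hε'
  have hex : ∀ a ∈ A2std, g a = a → ∃ y ∈ XX chevD4 4 (KK r) a, y ≠ 1 ∧ τ y = y := fun a ha hga =>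
    HX.exists_fixed_one Cfsg.Agent.Nodes.RGDTwD4.hp cs4' he hτ F (hroot a ha) hga
  have h02 : (0 : Fin 3) ≠ 2 := by decide
  have h20 : (2 : Fin 3) ≠ 0 := by decide
  have hg02 : g (rt 0 2) = rt 0 2 := by
    rcases hcs with h | h
    · exact h 0 2 h02
    · exact h 0 2 h02
  have hg20 : g (rt 2 0) = rt 2 0 := by
    rcases hcs with h | h
    · exact h 2 0 h20
    · exact h 2 0 h20
  set L : Subgroup (SpecialLinearGroup (Fin 3) (KK r)) := τ'.toMonoidHom.eqLocus (MonoidHom.id _) with hL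
  have hLm : ∀ A, A ∈ L ↔ τ' A = A := fun A => Iff.rfl
  -- the group of fixed points
  have key : IsQuasisimple ↥L ∧ Gen 3 ↥L := by
    rcases hcs with h | h
    · have h1 : ∀ (i j : Fin 3) (hij : i ≠ j), ∃ c : KK r, ∀ t, τ' (Tr hij t) = Tr hij (c * t ^ r ^ e) :=
        fun i j hij => hact i j i j hij hij (h i j hij)
      choose c hc using h1
      obtain ⟨E, iE1, iE2, iE3, -, ⟨f⟩⟩ := Cfsg.Agent.H592.TriFix.fix_SL3 he τ'
        (fun i j => if hij : i ≠ j then c i j hij else 0) (fun i j hij t => by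
          rw [dif_pos hij]
          exact congrArg Subtype.val (hc i j hij t))
      exact ⟨quasi_congr f.symm (SignalizersComponents.SLQuasisimple.isQuasisimple_of_three_le (by simp)),
        (hSL E).congr f.symm⟩
    · have h1 : ∀ (i j : Fin 3) (hij : i ≠ j), ∃ c : KK r, ∀ t, τ' (Tr hij t) =
          Tr (show Fin.rev j ≠ Fin.rev i from fun e => hij (Fin.rev_injective e).symm) (c * t ^ r ^ e) :=
        fun i j hij => hact i j (Fin.rev j) (Fin.rev i) hij _ (h i j hij)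
      choose c hc using h1
      obtain ⟨E, iE1, iE2, iE3, hE, ⟨f⟩⟩ := Cfsg.Agent.H592.TriFix.fix_SU3 he τ'
        (fun i j => if hij : i ≠ j then c i j hij else 0) (fun i j hij t => by
          rw [dif_pos hij]
          exact congrArg Subtype.val (hc i j hij t))
      have hq : r ^ e ≠ 2 := by
        have := Nat.le_self_pow he.ne' r
        omega
      exact ⟨quasi_congr f.symm (GenPsu.quasi hE le_rfl (fun h => hq h.2)), (hSU E _ hE).congr f.symm⟩
  set K : Subgroup (Y4 r) := L.map Ψ with hK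
  have eK : ↥L ≃* ↥K := L.equivMapOfInjective Ψ H.inj
  have hKq : IsQuasisimple ↥K := quasi_congr eK key.1
  have hKm : ∀ u, u ∈ K ↔ u ∈ RGD.Sup (XX chevD4 4 (KK r)) A2std ∧ τ u = u := by
    intro u
    rw [← H.range_eq]
    constructor
    · rintro ⟨A, hA, rfl⟩
      refine ⟨⟨A, rfl⟩, ?_⟩
      rw [← hτ', (hLm A).1 hA]
    · rintro ⟨⟨A, rfl⟩, hA⟩
      refine ⟨A, (hLm A).2 (H.inj ?_), rfl⟩
      rw [hτ', hA]
  refine ⟨1, by norm_num, fun _ => K, fun _ => hKq, fun _ => key.2.congr eK, fun i j hij => ?_, ?_⟩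
  · exact absurd (Subsingleton.elim i j) hij
  rw [iSup_const]
  have hset : {u : Y4 r | u ∈ RGD.Sup (XX chevD4 4 (KK r)) A2std ∧ τ u = u ∧ ∃ j, u ^ r ^ j = 1} =
      {u : Y4 r | u ∈ K ∧ ∃ j, u ^ r ^ j = 1} := by
    ext u
    rw [Set.mem_ofPred_eq, Set.mem_ofPred_eq, hKm, and_assoc]
  rw [hset]
  obtain ⟨a, haX, ha1, haτ⟩ := hex _ (rt_mem h02) hg02
  obtain ⟨b, hbX, hb1, hbτ⟩ := hex _ (rt_mem h20) hg20
  have haK : a ∈ K := (hKm a).2 ⟨RGD.le_Sup (rt_mem h02) haX, haτ⟩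
  have hbK : b ∈ K := (hKm b).2 ⟨RGD.le_Sup (rt_mem h20) hbX, hbτ⟩
  obtain ⟨s, rfl⟩ := (H.mem_iff h02).1 haX
  obtain ⟨t, rfl⟩ := (H.mem_iff h20).1 hbX
  refine closure_of_quasi hKq haK hbK ⟨1, ?_⟩ ?_
  · rw [pow_one, ← map_pow, Tr_pow, CharP.cast_eq_zero, zero_mul]
    have : Tr h02 (0 : KK r) = 1 := SpecialLinearGroup.transvection_coeff_zero h02
    rw [this, map_one]
  · intro h
    rw [← map_mul, ← map_mul] at h
    have h1 := Tr_comm (H.inj h)
    rcases mul_eq_zero.1 h1 with h2 | h2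
    · rw [h2] at ha1
      exact ha1 (by
        have : Tr h02 (0 : KK r) = 1 := SpecialLinearGroup.transvection_coeff_zero h02
        rw [this, map_one])
    · rw [h2] at hb1
      exact hb1 (by
        have : Tr h20 (0 : KK r) = 1 := SpecialLinearGroup.transvection_coeff_zero h20
        rw [this, map_one])

/-- **TRI-5b**, relative to the exact statement of TRI-5a -/
theorem compY_A2_of_exists
    (hΨ : ∃ Ψ : Matrix.SpecialLinearGroup (Fin 3) (KK r) →* ↥(chevD4.group (KK r)),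
      Function.Injective Ψ ∧ ∀ (i j : Fin 3) (hij : i ≠ j), ∃ s < chevD4.nroots, ∃ ε : KK r, ε ^ 2 = 1 ∧
      vec chevD4 4 s = (![![0, sr 0, sr 0 + sr 1], ![-sr 0, 0, sr 1], ![-(sr 0 + sr 1), -sr 1, 0]] :
        Fin 3 → Fin 3 → (Fin 4 → ℤ)) i j ∧
      ∀ t : KK r, Ψ ⟨Matrix.transvection i j t, by simp [hij]⟩ =
        xs Cfsg.Agent.Nodes.RGDTwD4.hp.inList s (ε * t)) (hr5 : 5 ≤ r)
    (hSL : ∀ (F : Type) [Field F] [Fintype F] [CharP F r], Gen 3 (Matrix.SpecialLinearGroup (Fin 3) F))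
    (hSU : ∀ (F : Type) [Field F] [Fintype F] [CharP F r] (q : ℕ), Fintype.card F = q ^ 2 → Gen 3 ↥(SU 3 F q))
    {e : ℕ} (he : 0 < e) {τ : MulAut (Y4 r)} (hτ : IsFrob r e τ) {g : (Fin 4 → ℤ) ≃+ (Fin 4 → ℤ)}
    (F : Fr coxeterD4.toCoxeterSystem Cfsg.Agent.Nodes.RGDTwD4.hp.isCartan (TT chevD4 (KK r)) (XX chevD4 4 (KK r)) τ g)
    (hg : ∀ a ∈ A2std, g a ∈ A2std) (hpos : ∀ a ∈ A2std, 0 ≤ a → 0 ≤ g a) : CompY τ A2std := by
  obtain ⟨Ψ, hinj, h⟩ := hΨ
  exact compY_A2_of (HPsi.of hinj h) hr5 hSL hSU he hτ F hg hpos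

end main

end Cfsg.Agent.H140.Tri
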