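import Mathlib

/-!
# The action of the Weyl group of type `D₄` on `(ℤ/3)⁴` (helper140, S2187 row TRI, task TRI-7)
-/

set_option autoImplicit false

namespace Cfsg.Agent.H140.Tri

abbrev V3 := Fin 4 → ZMod 3

/-- the Cartan matrix of type `D₄`, central node `1` -/
def cA (i j : Fin 4) : ℤ := if i = j then 2 else if (i = 1 ↔ j = 1) then 0 else -1

/-- the reflections -/
def refl (i : Fin 4) (v : V3) : V3 := fun j => v j - (cA i j : ZMod 3) * v i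

/-- the triality -/
def G (v : V3) : V3 := ![v 3, v 1, v 0, v 2]

/-- the three short orbits -/
def O : Fin 3 → List V3 := ![
  [![0, 0, 1, 2], ![0, 0, 2, 1], ![0, 1, 2, 2], ![0, 2, 1, 1], ![1, 0, 0, 0], ![1, 2, 0, 0], ![2, 0, 0, 0],
    ![2, 1, 0, 0]],
  [![0, 0, 1, 0], ![0, 0, 2, 0], ![0, 1, 2, 0], ![0, 2, 1, 0], ![1, 0, 0, 2], ![1, 2, 0, 1], ![2, 0, 0, 1],
    ![2, 1, 0, 2]],
  [![0, 0, 0, 1], ![0, 0, 0, 2], ![0, 1, 0, 2], ![0, 2, 0, 1], ![1, 0, 2, 0], ![1, 2, 1, 0], ![2, 0, 1, 0],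
    ![2, 1, 2, 0]]]

def tab : List (List (Fin 4)) := [
  [], [], [], [], [0, 1, 3, 2, 1], [], [1, 2, 0, 1, 3, 1, 2, 0, 1], [], [1, 3, 2, 1], [], [2, 1, 3, 0, 1, 2], 
  [], [2, 1, 3, 0, 1], [2, 1, 3], [2, 0, 1, 3, 0, 1, 2], [], [], [2, 0, 1, 3], [], [], [0, 1, 3], [], 
  [1, 3, 0, 1, 2], [], [1, 3, 0, 1], [1, 3], [0, 1, 3, 0, 1, 2], [], [3, 1, 2, 0, 1, 3], [], [3, 1, 2, 0, 1], 
  [3, 1, 2], [3, 1, 2, 0, 1, 3, 2], [], [], [3, 0, 1, 2], [], [0, 1, 3, 2], [0, 1], [1, 2, 0, 1, 3, 1, 2], 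
  [1, 3, 2, 0, 1], [1, 3, 2], [], [1], [0, 1, 3, 2, 0, 1], [], [2, 1], [2, 0, 1, 3, 2, 0, 1], [2], 
  [2, 0, 1, 3, 2], [2, 0, 1], [1, 2, 0, 1, 3, 0, 1, 2], [2, 1, 3, 2, 0, 1], [2, 1, 3, 2], [], [], [0, 1, 2], 
  [], [1, 2, 0, 1, 3], [], [1, 2, 0, 1], [1, 2], [1, 2, 0, 1, 3, 2], [], [3, 1], [0, 1, 3, 1, 2, 0, 1], [3], 
  [0, 1, 3, 1, 2], [3, 0, 1], [3, 1, 2, 0, 1, 3, 1, 2], [1, 3, 1, 2, 0, 1], [1, 3, 1, 2], 
  [3, 1, 2, 0, 1, 3, 0, 1, 2], [2, 1, 3, 1, 2, 0, 1], [2, 1, 3, 1, 2], [], [3, 2, 1], 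
  [2, 0, 1, 3, 1, 2, 0, 1], [3, 2], [2, 0, 1, 3, 1, 2], [3, 2, 0, 1]]

def wd (v : V3) : List (Fin 4) := tab.getD ((v 0).val + 3 * (v 1).val + 9 * (v 2).val + 27 * (v 3).val) []

/-- apply a word -/
def app (ω : List (Fin 4)) (v : V3) : V3 := ω.foldl (fun x i => refl i x) v

theorem eta (v : V3) : v = ![v 0, v 1, v 2, v 3] := by
  funext i
  fin_cases i <;> rfl

theorem all_iff {P : V3 → Prop} (h : ∀ a b c d : ZMod 3, P ![a, b, c, d]) (v : V3) : P v := by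
  rw [eta v]
  exact h _ _ _ _

theorem wd_spec' (v : V3) : (v = 0 ∨ v ∈ O 0 ∨ v ∈ O 1 ∨ v ∈ O 2) ∨
    (app (wd v) v = ![0, 0, 1, 1] ∨ app (wd v) v = ![0, 1, 0, 0]) := by
  revert v
  refine all_iff ?_
  decide +kernel

theorem wd_spec (v : V3) (h0 : v ≠ 0) (h : ∀ j, v ∉ O j) :
    app (wd v) v = ![0, 0, 1, 1] ∨ app (wd v) v = ![0, 1, 0, 0] := by
  rcases wd_spec' v with (h1 | h1 | h1 | h1) | h1
  · exact absurd h1 h0
  · exact absurd h1 (h 0)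
  · exact absurd h1 (h 1)
  · exact absurd h1 (h 2)
  · exact h1

theorem O_refl (j : Fin 3) (i : Fin 4) (v : V3) : v ∈ O j → refl i v ∈ O j := by
  revert v
  refine all_iff ?_
  revert j i
  decide +kernel

theorem O_neg (j : Fin 3) (v : V3) : v ∈ O j → (2 : ZMod 3) • v ∈ O j := by
  revert v
  refine all_iff ?_
  revert j
  decide +kernel

theorem O_G (j : Fin 3) (v : V3) : v ∈ O j → G v ∈ O (j + 1) := by
  revert v
  refine all_iff ?_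
  revert j
  decide +kernel

theorem O_disj (j j' : Fin 3) (v : V3) : v ∈ O j → v ∈ O j' → j = j' := by
  revert v
  refine all_iff ?_
  revert j j'
  decide +kernel

theorem O_G_iter (j : Fin 3) (v : V3) (h : v ∈ O j) (m : ℕ) : G^[m] v ∈ O (j + Fin.ofNat 3 m) := by
  induction m with
  | zero =>
    have e : j + Fin.ofNat 3 0 = j := by
      clear h
      revert j
      decide
    rw [e]
    exact h
  | succ m ih =>
    have e : j + Fin.ofNat 3 (m + 1) = j + Fin.ofNat 3 m + 1 := by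
      have e1 : Fin.ofNat 3 (m + 1) = Fin.ofNat 3 m + 1 := by
        apply Fin.ext
        simp [Fin.ofNat, Fin.val_add]
      rw [e1, add_assoc]
    rw [Function.iterate_succ_apply', e]
    exact O_G _ _ ih

theorem refl_refl (i : Fin 4) (v : V3) : refl i (refl i v) = v := by
  revert v
  refine all_iff ?_
  revert i
  decide +kernel

end Cfsg.Agent.H140.Tri
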