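import Mathlib
import Cfsg.Agent.H350.Tri.Defs
import Cfsg.Agent.H696.GmnToral
import Cfsg.Agent.S1054
import Cfsg.Agent.H140.Tri.Comb

/-!
# Elements of order three of the torus of `D₄(k)` fused with their images under triality (helper140, S2187, TRI-7)

* `HasVec ζ t v` : the characters of `t` are `ζ ^ ⟨a, v⟩`, `v ∈ (ℤ/3)⁴`;
* `exc` : TRI-7.
-/

set_option autoImplicit false

namespace Cfsg.Agent.H140.Tri

open CoxeterSystem Cfsg Cfsg.Lie Cfsg.Agent.ChevalleyStructure Cfsg.Agent.ChevalleyStructure.Elts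
open Cfsg.Agent.ChevalleyStructure.CoxeterGeom Cfsg.Agent.ChevalleyStructure.CoxeterGeomTypes
  Cfsg.Agent.ChevalleyStructure.NPerm
open Cfsg.Agent.ChevalleyStructure.GraphSymm (symmD4a)
open Cfsg.Agent.Tits.Roots Cfsg.Agent.Tits.Core Cfsg.Agent.Nodes Cfsg.Agent.Nodes.Reps Cfsg.Agent.Nodes.BNOf
  Cfsg.Agent.Nodes.Bruhat Cfsg.Agent.Nodes.RGDChev
open Cfsg.Agent.KFacts.RgdField Cfsg.Agent.KFacts.RgdChevCoord
open Cfsg.Agent.BpExc Cfsg.Agent.BpExc.TorCent Cfsg.Agent.BpExc.TorChev Cfsg.Agent.BpExc.Tow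
  Cfsg.Agent.BpExc.TowChev Cfsg.Agent.BpExc.Fr Cfsg.Agent.BpExc.Pair Cfsg.Agent.BpExc.LangFr
open Cfsg.Agent.BpExc.FamTw.Gr Cfsg.Agent.BpExc.FamUntw
open Cfsg.Agent.H469.Exc Cfsg.Agent.H350.Tri
open Cfsg.Agent.H696.GmnToral

universe u v

/-! ### the pairing -/

/-- the pairing -/
def dot (a : Fin 4 → ℤ) (v : V3) : ZMod 3 := ∑ i, (a i : ZMod 3) * v i

theorem dot_add (a b : Fin 4 → ℤ) (v : V3) : dot (a + b) v = dot a v + dot b v := by
  simp only [dot, Pi.add_apply, Int.cast_add, add_mul, Finset.sum_add_distrib]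

theorem dot_sr (i : Fin 4) (v : V3) : dot (sr i) v = v i := by
  unfold dot
  rw [Finset.sum_eq_single i]
  · rw [sr_self, Int.cast_one, one_mul]
  · intro j _ hj
    rw [sr_ne hj, Int.cast_zero, zero_mul]
  · intro h
    exact absurd (Finset.mem_univ i) h

theorem cartan_eq : ∀ i j : Fin 4, cartanOf chevD4 4 i j = cA i j := by decide +kernel

theorem dot_rep {W : Type v} [Group W] (cs : CoxeterSystem coxeterD4 W) (j : Fin 4) (a : Fin 4 → ℤ) (v : V3) :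
    dot (rep cs Cfsg.Agent.Nodes.RGDTwD4.hp.isCartan (cs.simple j) a) v = dot a (refl j v) := by
  rw [rep_simple_eq]
  have h1 : ((pairing (cartanOf chevD4 4) j a : ℤ) : ZMod 3) = ∑ i, (cA j i : ZMod 3) * (a i : ZMod 3) := by
    unfold pairing
    rw [Int.cast_sum]
    refine Finset.sum_congr rfl fun i _ => ?_
    rw [Int.cast_mul, cartan_eq]
  have h2 : dot (a - pairing (cartanOf chevD4 4) j a • sr j) v =
      dot a v - ((pairing (cartanOf chevD4 4) j a : ℤ) : ZMod 3) * v j := by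
    have h3 : ∀ x : Fin 4 → ℤ, ∀ n : ℤ, dot (a - n • x) v = dot a v - (n : ZMod 3) * dot x v := by
      intro x n
      simp only [dot, Pi.sub_apply, Pi.smul_apply, smul_eq_mul, Int.cast_sub, Int.cast_mul, sub_mul,
        Finset.sum_sub_distrib, Finset.mul_sum, mul_assoc]
    rw [h3, dot_sr]
  rw [h2, h1]
  simp only [dot, refl, mul_sub, Finset.sum_sub_distrib, Finset.sum_mul]
  congr 1
  refine Finset.sum_congr rfl fun i _ => ?_
  ring

/-! ### powers of a cube root of one -/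

section E

variable {k : Type u} [Field k] {ζ : k}

/-- `ζ ^ z` -/
def E (ζ : k) (z : ZMod 3) : k := ζ ^ z.val

theorem E_add (hζ : ζ ^ 3 = 1) (a b : ZMod 3) : E ζ (a + b) = E ζ a * E ζ b := by
  unfold E
  rw [ZMod.val_add, ← pow_add, ← pow_eq_pow_mod _ hζ]

theorem E_zero : E ζ 0 = 1 := by
  unfold E
  rw [ZMod.val_zero, pow_zero]

theorem E_inj (hζ : IsPrimitiveRoot ζ 3) {a b : ZMod 3} (h : E ζ a = E ζ b) : a = b := by
  unfold E at h
  exact ZMod.val_injective 3 (hζ.pow_inj (ZMod.val_lt a) (ZMod.val_lt b) h)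

theorem E_nsmul (hζ : ζ ^ 3 = 1) (n : ℕ) (a : ZMod 3) : E ζ ((n : ZMod 3) * a) = E ζ a ^ n := by
  induction n with
  | zero => rw [Nat.cast_zero, zero_mul, E_zero, pow_zero]
  | succ n ih => rw [Nat.cast_succ, add_mul, one_mul, E_add hζ, ih, pow_succ]

end E

/-! ### vectors -/

section Vec

variable {r : ℕ} [hrf : Fact r.Prime]

/-- the Coxeter system -/
noncomputable abbrev cs4 := coxeterD4.toCoxeterSystem

/-- the characters of `t` -/
def HasVec (ζ : KK r) (t : Y4 r) (v : V3) : Prop :=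
  ∀ a, IsRoot cs4 Cfsg.Agent.Nodes.RGDTwD4.hp.isCartan a → ch Cfsg.Agent.Nodes.RGDTwD4.hp a t = E ζ (dot a v)

variable {ζ : KK r}

theorem hZ4 : Subgroup.center (Y4 r) = ⊥ := by
  obtain ⟨h1, h2⟩ := S1054.result (F := KK r) chevD4 (by simp)
  rcases (inferInstance : (Subgroup.center (Y4 r)).Normal).eq_bot_or_eq_top with h3 | h3
  · exact h3
  · exfalso
    apply h2
    refine ⟨⟨fun a b => ?_⟩⟩
    have : b ∈ Subgroup.center (Y4 r) := by rw [h3]; trivial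
    exact Subgroup.mem_center_iff.1 this a

theorem exists_zeta (hr3 : r ≠ 3) : ∃ ζ : KK r, IsPrimitiveRoot ζ 3 := by
  have h3 : ((3 : ℕ) : KK r) ≠ 0 := by
    intro h
    have h1 := (CharP.cast_eq_zero_iff (KK r) r 3).1 h
    exact hr3 ((Nat.prime_dvd_prime_iff_eq hrf.out Nat.prime_three).1 h1)
  have : NeZero ((3 : ℕ) : KK r) := ⟨h3⟩
  exact HasEnoughRootsOfUnity.exists_primitiveRoot (KK r) 3

/-- existence of the vector -/
theorem exists_vec (hζ : IsPrimitiveRoot ζ 3) {t : Y4 r} (ht : t ∈ TT chevD4 (KK r)) (h3 : t ^ 3 = 1) :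
    ∃ v, HasVec ζ t v := by
  have hk := locFin r
  obtain ⟨φ, h0, hadd, hφ⟩ := chAddL Cfsg.Agent.Nodes.RGDTwD4.hp cs4 hk r t ht
  have hz3 := hζ.pow_eq_one
  -- values on the simple roots
  have h1 : ∀ i : Fin 4, ∃ z : ZMod 3, φ (sr i) = E ζ z := by
    intro i
    have hi := isRoot_sr cs4 Cfsg.Agent.Nodes.RGDTwD4.hp.isCartan i
    have h2 : φ (sr i) ^ 3 = 1 := by
      rw [← hφ _ hi, ← ch_pow Cfsg.Agent.Nodes.RGDTwD4.hp cs4 hk r hi ht, h3,
        ch_one Cfsg.Agent.Nodes.RGDTwD4.hp cs4 hk r hi]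
    obtain ⟨j, hj, e⟩ := hζ.eq_pow_of_pow_eq_one h2
    refine ⟨(j : ZMod 3), ?_⟩
    unfold E
    rw [ZMod.val_natCast, Nat.mod_eq_of_lt hj, e]
  choose v hv using h1
  have hne : ∀ x, φ x ≠ 0 := by
    intro x hx
    have h2 := hadd x (-x)
    rw [add_neg_cancel, h0, hx, zero_mul] at h2
    exact one_ne_zero h2
  have hEne : ∀ z, E ζ z ≠ 0 := fun z => pow_ne_zero _ (hζ.ne_zero (by norm_num))
  -- compare the two homomorphisms
  let f : (Fin 4 → ℤ) →+ Additive (KK r)ˣ :=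
    { toFun := fun x => Additive.ofMul (Units.mk0 (φ x) (hne x))
      map_zero' := by
        apply Additive.toMul.injective
        apply Units.ext
        exact h0
      map_add' := fun x y => by
        apply Additive.toMul.injective
        apply Units.ext
        exact hadd x y }
  let g : (Fin 4 → ℤ) →+ Additive (KK r)ˣ :=
    { toFun := fun x => Additive.ofMul (Units.mk0 (E ζ (dot x v)) (hEne _))
      map_zero' := by
        apply Additive.toMul.injective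
        apply Units.ext
        show E ζ (dot 0 v) = 1
        have : dot 0 v = 0 := by simp [dot]
        rw [this, E_zero]
      map_add' := fun x y => by
        apply Additive.toMul.injective
        apply Units.ext
        show E ζ (dot (x + y) v) = E ζ (dot x v) * E ζ (dot y v)
        rw [dot_add, E_add hz3] }
  have hfg : f = g := by
    refine AddMonoidHom.functions_ext _ _ _ fun i n => ?_
    have e1 : (Pi.single i n : Fin 4 → ℤ) = n • sr i := by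
      rw [sr, ← Pi.single_smul, smul_eq_mul, mul_one]
    rw [e1, map_zsmul, map_zsmul]
    congr 1
    apply Additive.toMul.injective
    apply Units.ext
    show φ (sr i) = E ζ (dot (sr i) v)
    rw [hv, dot_sr]
  refine ⟨v, fun a ha => ?_⟩
  rw [hφ a ha]
  have h2 := congrArg (fun h : (Fin 4 → ℤ) →+ Additive (KK r)ˣ => ((Additive.toMul (h a) : (KK r)ˣ) : KK r)) hfg
  exact h2

/-- the zero vector -/
theorem HasVec.eq_one {t : Y4 r} (ht : t ∈ TT chevD4 (KK r)) (h : HasVec ζ t 0) : t = 1 := by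
  refine eq_one_TT Cfsg.Agent.Nodes.RGDTwD4.hp cs4 (locFin r) r hZ4 ht fun a ha => ?_
  rw [h a ha]
  have : dot a 0 = 0 := by simp [dot]
  rw [this, E_zero]

/-- powers -/
theorem HasVec.pow (hζ : IsPrimitiveRoot ζ 3) {t : Y4 r} (ht : t ∈ TT chevD4 (KK r)) {v : V3} (h : HasVec ζ t v)
    (n : ℕ) : HasVec ζ (t ^ n) ((n : ZMod 3) • v) := by
  intro a ha
  rw [ch_pow Cfsg.Agent.Nodes.RGDTwD4.hp cs4 (locFin r) r ha ht, h a ha, ← E_nsmul hζ.pow_eq_one]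
  congr 1
  simp only [dot, Finset.mul_sum, Pi.smul_apply, smul_eq_mul]
  refine Finset.sum_congr rfl fun i _ => ?_
  ring

/-- the triality -/
theorem HasVec.gr {t : Y4 r} (ht : t ∈ TT chevD4 (KK r)) {v : V3} (h : HasVec ζ t v) :
    gr4 r t ∈ TT chevD4 (KK r) ∧ HasVec ζ (gr4 r t) (G v) := by
  have F : Fr cs4 Cfsg.Agent.Nodes.RGDTwD4.hp.isCartan (TT chevD4 (KK r)) (XX chevD4 4 (KK r)) (gr4 r)
      (H720.TwFr.permE H720.TwFr.rho4) := H720.TwFr.fr_four Cfsg.Agent.Nodes.RGDTwD4.hp cs4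
  have hF : IsFrob r 0 (gr4 r) := H720.TwFr.gr_isFrob symmD4a Cfsg.Agent.Nodes.RGDTwD4.hp.inList r
  refine ⟨(F.tor t).2 ht, fun b hb => ?_⟩
  obtain ⟨a, rfl⟩ := (H720.TwFr.permE H720.TwFr.rho4).surjective b
  have ha := (F.root a).1 hb
  have h1 := fr_ch Cfsg.Agent.Nodes.RGDTwD4.hp cs4 (locFin r) hF F ha ht
  rw [h1, pow_zero, pow_one, h a ha]
  congr 1
  show ∑ i, (a i : ZMod 3) * v i = ∑ i, (a (H720.TwFr.rho4.symm i) : ZMod 3) * G v i
  rw [← Equiv.sum_comp H720.TwFr.rho4.symm (fun i => (a i : ZMod 3) * v i)]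
  refine Finset.sum_congr rfl fun i _ => ?_
  congr 1
  fin_cases i <;> rfl

theorem HasVec.gr_iter {t : Y4 r} (ht : t ∈ TT chevD4 (KK r)) {v : V3} (h : HasVec ζ t v) (m : ℕ) :
    (gr4 r ^ m) t ∈ TT chevD4 (KK r) ∧ HasVec ζ ((gr4 r ^ m) t) (G^[m] v) := by
  induction m with
  | zero =>
    rw [pow_zero]
    exact ⟨ht, h⟩
  | succ m ih =>
    rw [pow_succ', MulAut.mul_apply, Function.iterate_succ_apply']
    exact HasVec.gr ih.1 ih.2

/-- conjugation by `n_j` -/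
theorem HasVec.conj {t : Y4 r} (ht : t ∈ TT chevD4 (KK r)) {v : V3} (h : HasVec ζ t v) (j : Fin 4) :
    ∃ n : Y4 r, n * t * n⁻¹ ∈ TT chevD4 (KK r) ∧ HasVec ζ (n * t * n⁻¹) (refl j v) := by
  have hk := locFin r
  have hTL := TL_eq Cfsg.Agent.Nodes.RGDTwD4.hp hk
  have hXL := XL_eq Cfsg.Agent.Nodes.RGDTwD4.hp hk
  have H := tow Cfsg.Agent.Nodes.RGDTwD4.hp cs4 hk r
  have C : Coords cs4 Cfsg.Agent.Nodes.RGDTwD4.hp.isCartan (TL (Tj Cfsg.Agent.Nodes.RGDTwD4.hp (k := KK r)))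
      (nc Cfsg.Agent.Nodes.RGDTwD4.hp (KK r)) (XL (Xj Cfsg.Agent.Nodes.RGDTwD4.hp (k := KK r)))
      (xc Cfsg.Agent.Nodes.RGDTwD4.hp) (ch Cfsg.Agent.Nodes.RGDTwD4.hp) := by
    rw [hTL, hXL]; exact coordsL Cfsg.Agent.Nodes.RGDTwD4.hp cs4 hk r
  have ht' : t ∈ TL (Tj Cfsg.Agent.Nodes.RGDTwD4.hp (k := KK r)) := by rw [hTL]; exact ht
  obtain ⟨n, -, hn⟩ := H.exists_rp (cs4.simple j)
  refine ⟨n, ?_, fun b hb => ?_⟩
  · rw [← hTL]
    exact (Subgroup.mem_normalizer_iff.1 hn.mem_normalizer t).1 ht'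
  · have ha := hb.act (cs4.simple j)
    have h1 := C.chi_rp H.nsys hn ha ht'
    have h2 : rep cs4 Cfsg.Agent.Nodes.RGDTwD4.hp.isCartan (cs4.simple j)
        (rep cs4 Cfsg.Agent.Nodes.RGDTwD4.hp.isCartan (cs4.simple j) b) = b := by
      rw [← rep_mul_apply, cs4.simple_mul_simple_self, map_one, Module.End.one_apply]
    rw [h2] at h1
    rw [h1, h _ ha, dot_rep]

theorem HasVec.app {t : Y4 r} (ht : t ∈ TT chevD4 (KK r)) {v : V3} (h : HasVec ζ t v) (ω : List (Fin 4)) :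
    ∃ n : Y4 r, n * t * n⁻¹ ∈ TT chevD4 (KK r) ∧ HasVec ζ (n * t * n⁻¹) (app ω v) := by
  induction ω generalizing t v with
  | nil =>
    refine ⟨1, ?_, ?_⟩
    · simpa using ht
    · simpa [Tri.app] using h
  | cons j ω ih =>
    obtain ⟨n, hn, hv⟩ := HasVec.conj ht h j
    obtain ⟨m, hm, hv'⟩ := ih hn hv
    have e : m * n * t * (m * n)⁻¹ = m * (n * t * n⁻¹) * m⁻¹ := by group
    refine ⟨m * n, ?_, ?_⟩
    · rw [e]; exact hm
    · rw [e]; exact hv'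

/-- invariants of the Weyl group -/
theorem orbit_word {W : Type v} [Group W] (cs : CoxeterSystem coxeterD4 W) {P : V3 → Prop}
    (hP : ∀ i v, P v → P (refl i v)) (ω : List (Fin 4)) {v v' : V3} (hv : P v)
    (h : ∀ a, IsRoot cs Cfsg.Agent.Nodes.RGDTwD4.hp.isCartan a →
      dot (rep cs Cfsg.Agent.Nodes.RGDTwD4.hp.isCartan (cs.wordProd ω) a) v' = dot a v) : P v' := by
  induction ω generalizing v' with
  | nil =>
    have : v' = v := by
      funext i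
      have h1 := h (sr i) (isRoot_sr cs _ i)
      rw [wordProd_nil, map_one, Module.End.one_apply, dot_sr, dot_sr] at h1
      exact h1
    rw [this]; exact hv
  | cons j ω ih =>
    have h1 : P (refl j v') := by
      refine ih fun a ha => ?_
      have h2 := h a ha
      rwa [wordProd_cons, rep_mul_apply, dot_rep] at h2
    have h2 := hP j _ h1
    rwa [refl_refl] at h2

/-- **Conjugate elements of the torus.** -/
theorem orbit_conj (hζ : IsPrimitiveRoot ζ 3) {P : V3 → Prop} (hP : ∀ i v, P v → P (refl i v)) {s t : Y4 r}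
    (hs : s ∈ TT chevD4 (KK r)) (ht : t ∈ TT chevD4 (KK r)) {v v' : V3} (h : HasVec ζ s v) (h' : HasVec ζ t v')
    (hv : P v) {z : Y4 r} (hz : z * s * z⁻¹ = t) : P v' := by
  have hk := locFin r
  have := finite_W Cfsg.Agent.Nodes.RGDTwD4.hp cs4
  have hTL := TL_eq Cfsg.Agent.Nodes.RGDTwD4.hp hk
  have hXL := XL_eq Cfsg.Agent.Nodes.RGDTwD4.hp hk
  have H := tow Cfsg.Agent.Nodes.RGDTwD4.hp cs4 hk r
  have C : Coords cs4 Cfsg.Agent.Nodes.RGDTwD4.hp.isCartan (TL (Tj Cfsg.Agent.Nodes.RGDTwD4.hp (k := KK r)))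
      (nc Cfsg.Agent.Nodes.RGDTwD4.hp (KK r)) (XL (Xj Cfsg.Agent.Nodes.RGDTwD4.hp (k := KK r)))
      (xc Cfsg.Agent.Nodes.RGDTwD4.hp) (ch Cfsg.Agent.Nodes.RGDTwD4.hp) := by
    rw [hTL, hXL]; exact coordsL Cfsg.Agent.Nodes.RGDTwD4.hp cs4 hk r
  have hs' : s ∈ TL (Tj Cfsg.Agent.Nodes.RGDTwD4.hp (k := KK r)) := by rw [hTL]; exact hs
  have ht' : t ∈ TL (Tj Cfsg.Agent.Nodes.RGDTwD4.hp (k := KK r)) := by rw [hTL]; exact ht
  have hzG : z ∈ GG cs4 Cfsg.Agent.Nodes.RGDTwD4.hp.isCartan (TL (Tj Cfsg.Agent.Nodes.RGDTwD4.hp (k := KK r)))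
      (XL (Xj Cfsg.Agent.Nodes.RGDTwD4.hp (k := KK r))) := by
    rw [GG_eq_top Cfsg.Agent.Nodes.RGDTwD4.hp cs4 hk]
    exact Subgroup.mem_top z
  obtain ⟨j1, h1⟩ := H.mem_TL.1 hs'
  obtain ⟨j2, h2⟩ := H.mem_TL.1 ht'
  obtain ⟨j3, h3⟩ := H.mem_GG.1 hzG
  obtain ⟨a, a1, a2⟩ := H.dir j1 j2
  obtain ⟨b, b1, b2⟩ := H.dir a j3
  obtain ⟨-, -, w, k, hw, e, -⟩ := conj_form (H.rgd b) (H.monoT (a1.trans b1) h1) (H.monoT (a2.trans b1) h2)
    (H.mono_GG b2 h3) (show z * s = t * z by rw [← hz]; group)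
  have hw' := H.rp_up hw
  have e' : k * s * k⁻¹ = t := by rw [e]; group
  obtain ⟨ω, rfl⟩ := cs4.wordProd_surjective w
  refine orbit_word cs4 hP ω hv fun a ha => ?_
  have h4 := C.chi_rp H.nsys hw' ha hs'
  rw [e', h a ha, h' _ (ha.act _)] at h4
  exact E_inj hζ h4

/-! ### the roots trivial on `t` -/

theorem root_check2 : ∀ s < chevD4.nroots, (dot (vec chevD4 4 s) ![0, 0, 1, 1] = 0 ↔
    vec chevD4 4 s = sr 0 ∨ vec chevD4 4 s = sr 1 ∨ vec chevD4 4 s = sr 0 + sr 1 ∨ vec chevD4 4 s = -sr 0 ∨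
      vec chevD4 4 s = -sr 1 ∨ vec chevD4 4 s = -(sr 0 + sr 1)) := by decide +kernel

theorem root_check1 : ∀ s < chevD4.nroots, (dot (vec chevD4 4 s) ![0, 1, 0, 0] = 0 ↔
    vec chevD4 4 s = sr 0 ∨ vec chevD4 4 s = sr 2 ∨ vec chevD4 4 s = sr 3 ∨ vec chevD4 4 s = -sr 0 ∨
      vec chevD4 4 s = -sr 2 ∨ vec chevD4 4 s = -sr 3) := by decide +kernel

theorem root_sum : ∃ s < chevD4.nroots, vec chevD4 4 s = sr 0 + sr 1 := by decide +kernel

theorem HasVec.mem_Roots (hζ : IsPrimitiveRoot ζ 3) {t : Y4 r} {v : V3} (h : HasVec ζ t v) (a : Fin 4 → ℤ) :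
    a ∈ Roots t ↔ IsRoot cs4 Cfsg.Agent.Nodes.RGDTwD4.hp.isCartan a ∧ dot a v = 0 := by
  constructor
  · rintro ⟨ha, h1⟩
    refine ⟨ha, ?_⟩
    rw [h a ha, ← E_zero (ζ := ζ)] at h1
    exact E_inj hζ h1
  · rintro ⟨ha, h1⟩
    refine ⟨ha, ?_⟩
    rw [h a ha, h1, E_zero]

theorem roots_A2 (hζ : IsPrimitiveRoot ζ 3) {t : Y4 r} (h : HasVec ζ t ![0, 0, 1, 1]) : Roots t = A2std := by
  have hi : ∀ i : Fin 4, IsRoot cs4 Cfsg.Agent.Nodes.RGDTwD4.hp.isCartan (sr i) := isRoot_sr cs4 _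
  have hs : IsRoot cs4 Cfsg.Agent.Nodes.RGDTwD4.hp.isCartan (sr 0 + sr 1) :=
    (isRoot_iff Cfsg.Agent.Nodes.RGDTwD4.hp cs4 _).2 root_sum
  ext a
  rw [h.mem_Roots hζ]
  constructor
  · rintro ⟨ha, h1⟩
    obtain ⟨s, hs, rfl⟩ := (isRoot_iff Cfsg.Agent.Nodes.RGDTwD4.hp cs4 _).1 ha
    exact (root_check2 s hs).1 h1
  · intro ha
    have ha' : IsRoot cs4 Cfsg.Agent.Nodes.RGDTwD4.hp.isCartan a := by
      rcases ha with rfl | rfl | rfl | rfl | rfl | rfl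
      · exact hi 0
      · exact hi 1
      · exact hs
      · exact (hi 0).neg
      · exact (hi 1).neg
      · exact hs.neg
    refine ⟨ha', ?_⟩
    obtain ⟨s, hs, rfl⟩ := (isRoot_iff Cfsg.Agent.Nodes.RGDTwD4.hp cs4 _).1 ha'
    exact (root_check2 s hs).2 ha

theorem roots_A1 (hζ : IsPrimitiveRoot ζ 3) {t : Y4 r} (h : HasVec ζ t ![0, 1, 0, 0]) : Roots t = A1std := by
  have hi : ∀ i : Fin 4, IsRoot cs4 Cfsg.Agent.Nodes.RGDTwD4.hp.isCartan (sr i) := isRoot_sr cs4 _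
  ext a
  rw [h.mem_Roots hζ]
  constructor
  · rintro ⟨ha, h1⟩
    obtain ⟨s, hs, rfl⟩ := (isRoot_iff Cfsg.Agent.Nodes.RGDTwD4.hp cs4 _).1 ha
    exact (root_check1 s hs).1 h1
  · intro ha
    have ha' : IsRoot cs4 Cfsg.Agent.Nodes.RGDTwD4.hp.isCartan a := by
      rcases ha with rfl | rfl | rfl | rfl | rfl | rfl
      · exact hi 0
      · exact hi 2
      · exact hi 3
      · exact (hi 0).neg
      · exact (hi 2).neg
      · exact (hi 3).neg
    refine ⟨ha', ?_⟩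
    obtain ⟨s, hs, rfl⟩ := (isRoot_iff Cfsg.Agent.Nodes.RGDTwD4.hp cs4 _).1 ha'
    exact (root_check1 s hs).2 ha

theorem smul_mem_O {n : ℕ} (hn : ¬ 3 ∣ n) {j : Fin 3} {v : V3} (h : v ∈ O j) : (n : ZMod 3) • v ∈ O j := by
  have h1 : n % 3 = 1 ∨ n % 3 = 2 := by omega
  rw [← ZMod.natCast_mod n 3]
  rcases h1 with h1 | h1
  · rw [h1, Nat.cast_one, one_smul]
    exact h
  · rw [h1]
    exact O_neg j v h

/-- **TRI-7** -/
theorem exc (hr3 : r ≠ 3) {t : Y4 r} (ht : t ∈ TT chevD4 (KK r)) (h3 : t ^ 3 = 1) (h1 : t ≠ 1)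
    (hfus : ∃ (z : Y4 r) (i : ℕ) (n : ℕ), ¬ 3 ∣ i ∧ z * ((gr4 r) ^ i) (t ^ n) * z⁻¹ = t) :
    ∃ n : Y4 r, n * t * n⁻¹ ∈ TT chevD4 (KK r) ∧ (Roots (n * t * n⁻¹) = A2std ∨ Roots (n * t * n⁻¹) = A1std) := by
  obtain ⟨ζ, hζ⟩ := exists_zeta hr3
  obtain ⟨v, hv⟩ := exists_vec hζ ht h3
  obtain ⟨z, i, n, hi, hz⟩ := hfus
  have hv0 : v ≠ 0 := by
    rintro rfl
    exact h1 (HasVec.eq_one ht hv)
  have hn : ¬ 3 ∣ n := by
    rintro ⟨m, rfl⟩
    rw [pow_mul, h3, one_pow, map_one, mul_one, mul_inv_cancel] at hz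
    exact h1 hz.symm
  by_cases hO : ∀ j, v ∉ O j
  · obtain ⟨m, hm, hw⟩ := HasVec.app ht hv (wd v)
    refine ⟨m, hm, ?_⟩
    rcases wd_spec v hv0 hO with h4 | h4
    · rw [h4] at hw
      exact Or.inl (roots_A2 hζ hw)
    · rw [h4] at hw
      exact Or.inr (roots_A1 hζ hw)
  · exfalso
    push Not at hO
    obtain ⟨j, hj⟩ := hO
    have hpow := hv.pow hζ ht n
    obtain ⟨hs, hs'⟩ := HasVec.gr_iter (pow_mem ht n) hpow i
    have h4 : G^[i] ((n : ZMod 3) • v) ∈ O (j + Fin.ofNat 3 i) := O_G_iter _ _ (smul_mem_O hn hj) i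
    have h5 := orbit_conj hζ (P := fun x => x ∈ O (j + Fin.ofNat 3 i)) (fun l x hx => O_refl _ l x hx) hs ht hs' hv h4 hz
    have h6 := O_disj _ _ _ hj h5
    apply hi
    have h7 : Fin.ofNat 3 i = 0 := by
      have := h6.symm
      exact add_eq_left.1 this
    have h8 := congrArg Fin.val h7
    simp only [Fin.ofNat, Fin.val_zero] at h8
    exact Nat.dvd_of_mod_eq_zero h8

end Vec

end Cfsg.Agent.H140.Tri
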